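import Cfsg.Agent.Lib.Helper38.FF.Defs

set_option autoImplicit false

namespace Cfsg.Agent.Lib.Helper38.FF

open scoped BigOperators

variable {k : Type*} [Field k] {R : Type*} [CommRing R] [Algebra k R]
  {V : Type*} [AddCommGroup V] [Module k V] [Module R V] [IsScalarTower k R V]
  {H : Type*} [Group H] [Fintype H]

theorem blk (τ : H →* (R ≃ₐ[k] R)) (σ : Representation k H V)
    (hσ : ∀ h a v, σ h (a • v) = τ h a • σ h v) (𝔪 : Ideal R) (hm : 𝔪.IsMaximal) [Fintype (stab τ 𝔪)]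
    (y : H → V) (hy : ∀ h, y h ∈ tors k V 𝔪) (hsum : ∑ h, σ h (y h) = 0) (h₀ : H) :
    ∑ h₁ : stab τ 𝔪, σ (h₀ * h₁) (y (h₀ * h₁)) = 0 := by
  classical
  let I : H → Ideal R := fun h => Ideal.comap ((τ h⁻¹ : R ≃ₐ[k] R) : R →+* R) 𝔪
  have hI : ∀ h r, r ∈ I h ↔ τ h⁻¹ r ∈ 𝔪 := fun h r => Iff.rfl
  have hImax : ∀ h, (I h).IsMaximal := by
    intro h
    exact Ideal.comap_isMaximal_of_surjective _ (τ h⁻¹ : R ≃ₐ[k] R).surjective
  have hkill : ∀ h r, r ∈ I h → r • σ h (y h) = 0 := by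
    intro h r hr
    have h1 : r • σ h (y h) = σ h (τ h⁻¹ r • y h) := by
      rw [hσ, ← AlgEquiv.mul_apply, ← map_mul]
      simp
    rw [h1, mem_tors.mp (hy h) _ ((hI h r).mp hr), map_zero]
  have hstab1 : ∀ h₁ : stab τ 𝔪, I (h₀ * h₁) = I h₀ := by
    intro h₁
    ext r
    rw [hI, hI, mul_inv_rev, map_mul, AlgEquiv.mul_apply]
    exact ((mem_stab.mp (h₁⁻¹).2) (τ h₀⁻¹ r)).symm
  have hstab2 : ∀ h, I h = I h₀ → h₀⁻¹ * h ∈ stab τ 𝔪 := by
    intro h hh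
    rw [mem_stab]
    intro a
    have h1 : τ h a ∈ I h ↔ a ∈ 𝔪 := by
      rw [hI, ← AlgEquiv.mul_apply, ← map_mul]
      simp
    have h2 : τ h a ∈ I h₀ ↔ τ (h₀⁻¹ * h) a ∈ 𝔪 := by
      rw [hI, ← AlgEquiv.mul_apply, ← map_mul]
    rw [← h1, hh, h2]
  have htop : I h₀ ⊔ ⨅ h ∈ Finset.univ.filter (fun h => I h ≠ I h₀), I h = ⊤ := by
    apply Ideal.sup_iInf_eq_top
    intro h hh
    exact Ideal.IsMaximal.coprime_of_ne (hImax h₀) (hImax h) (Finset.mem_filter.mp hh).2.symm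
  obtain ⟨a, ha, e, he, hae⟩ := Submodule.mem_sup.mp (htop ▸ (Submodule.mem_top : (1 : R) ∈ ⊤))
  have he' : ∀ h, I h ≠ I h₀ → e ∈ I h := by
    intro h hh
    have := (Submodule.mem_iInf _).mp he h
    exact (Submodule.mem_iInf _).mp this (Finset.mem_filter.mpr ⟨Finset.mem_univ _, hh⟩)
  have hes : ∀ h, e • σ h (y h) = if I h = I h₀ then σ h (y h) else 0 := by
    intro h
    split_ifs with hh
    · have h1 : e = 1 - a := by rw [← hae]; ring
      rw [h1, sub_smul, one_smul, hkill h a (hh ▸ ha), sub_zero]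
    · exact hkill h e (he' h hh)
  have hsum2 : ∑ h, (if I h = I h₀ then σ h (y h) else 0) = 0 := by
    rw [← Finset.sum_congr rfl fun h _ => hes h, ← Finset.smul_sum, hsum, smul_zero]
  rw [← hsum2]
  refine Fintype.sum_of_injective (fun h₁ : stab τ 𝔪 => h₀ * (h₁ : H)) ?_ _ _ ?_ ?_
  · intro x x' hx
    exact Subtype.ext (mul_left_cancel hx)
  · intro h hh
    rw [if_neg]
    intro hI0
    apply hh
    exact ⟨⟨h₀⁻¹ * h, hstab2 h hI0⟩, by simp⟩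
  · intro h₁
    rw [if_pos (hstab1 h₁)]

end Cfsg.Agent.Lib.Helper38.FF
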