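import Cfsg.Agent.Lib.Helper38.FF.Defs

set_option autoImplicit false

namespace Cfsg.Agent.Lib.Helper38.FF

open scoped BigOperators

variable {k : Type*} [Field k] {V : Type*} [AddCommGroup V] [Module k V] {H : Type*} [Group H] [Fintype H]

theorem freeIn_top_of_ker {V' : Type*} [AddCommGroup V'] [Module k V']
    (σ : Representation k H V) (σ' : Representation k H V') (π : V →ₗ[k] V')
    (hπ : Function.Surjective π) (hc : ∀ h v, π (σ h v) = σ' h (π v))
    (h₁ : FreeIn σ (LinearMap.ker π)) (h₂ : FreeIn σ' ⊤) : FreeIn σ ⊤ := by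
  classical
  obtain ⟨W₁, hi₁, hs₁⟩ := h₁
  obtain ⟨W', hi', hs'⟩ := h₂
  obtain ⟨s, hs⟩ := LinearMap.exists_rightInverse_of_surjective π (LinearMap.range_eq_top.mpr hπ)
  have hsπ : ∀ x, π (s x) = x := fun x => LinearMap.congr_fun hs x
  have hk : ∀ a : H → V, (∀ h, a h ∈ W₁) → π (∑ h, σ h (a h)) = 0 := by
    intro a ha
    exact LinearMap.mem_ker.mp ((hs₁ _).mpr ⟨a, ha, rfl⟩)
  refine ⟨W₁ ⊔ W'.map s, ?_, ?_⟩
  · intro w hw hsum
    have hw' : ∀ h, ∃ a ∈ W₁, ∃ b ∈ W', a + s b = w h := by
      intro h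
      obtain ⟨a, ha, y, hy, hay⟩ := Submodule.mem_sup.mp (hw h)
      obtain ⟨b, hb, rfl⟩ := hy
      exact ⟨a, ha, b, hb, hay⟩
    choose a ha b hb hab using hw'
    have hsum2 : ∑ h, σ h (a h) + ∑ h, σ h (s (b h)) = 0 := by
      rw [← Finset.sum_add_distrib, ← hsum]
      refine Finset.sum_congr rfl fun h _ => ?_
      rw [← map_add, hab]
    have hb0 : ∀ h, b h = 0 := by
      apply hi' b hb
      have := congrArg π hsum2
      rw [map_add, hk a ha, zero_add, map_zero, map_sum] at this
      rw [← this]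
      refine Finset.sum_congr rfl fun h _ => ?_
      rw [hc, hsπ]
    have ha0 : ∀ h, a h = 0 := by
      apply hi₁ a ha
      rw [← hsum2]
      simp [hb0]
    intro h
    rw [← hab, ha0, hb0]
    simp
  · intro u
    constructor
    · intro _
      obtain ⟨b, hb, hub⟩ := (hs' (π u)).mp trivial
      have hmem : u - ∑ h, σ h (s (b h)) ∈ LinearMap.ker π := by
        rw [LinearMap.mem_ker, map_sub, hub, map_sum, sub_eq_zero]
        refine Finset.sum_congr rfl fun h _ => ?_
        rw [hc, hsπ]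
      obtain ⟨a, ha, hua⟩ := (hs₁ _).mp hmem
      refine ⟨fun h => a h + s (b h), ?_, ?_⟩
      · intro h
        exact Submodule.add_mem _ (Submodule.mem_sup_left (ha h))
          (Submodule.mem_sup_right ⟨b h, hb h, rfl⟩)
      · simp only [map_add, Finset.sum_add_distrib]
        rw [← hua]
        abel
    · intro _
      trivial

end Cfsg.Agent.Lib.Helper38.FF
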