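import Cfsg.Agent.Lib.Helper38.FF.Defs

set_option autoImplicit false

namespace Cfsg.Agent.Lib.Helper38.FF

open scoped BigOperators

variable {k : Type*} [Field k] {V : Type*} [AddCommGroup V] [Module k V] {H : Type*} [Group H] [Fintype H]

theorem sum_single_aux [DecidableEq H] (σ : Representation k H V) (g : H) (x : V) :
    ∑ h, σ h ((Pi.single g x : H → V) h) = σ g x := by
  rw [Finset.sum_eq_single g]
  · simp
  · intro b _ hb
    simp [Pi.single_eq_of_ne hb]
  · intro hg
    exact absurd (Finset.mem_univ g) hg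

theorem freeIn_induce (σ : Representation k H V) (H₁ : Subgroup H) [Fintype H₁] (X : Submodule k V)
    (hX : FreeIn (σ.comp H₁.subtype) X)
    (hblk : ∀ y : H → V, (∀ h, y h ∈ X) → ∑ h, σ h (y h) = 0 →
      ∀ h₀ : H, ∑ h₁ : H₁, σ (h₀ * h₁) (y (h₀ * h₁)) = 0) :
    FreeIn σ (⨆ h : H, X.map (σ h)) := by
  classical
  obtain ⟨W, hi, hs⟩ := hX
  have hWX : W ≤ X := by
    intro x hx
    rw [hs]
    refine ⟨Pi.single 1 x, ?_, ?_⟩
    · intro h
      by_cases hh : h = 1
      · subst hh; simpa using hx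
      · rw [Pi.single_eq_of_ne hh]; exact Submodule.zero_mem _
    · rw [sum_single_aux]
      simp
  refine ⟨W, ?_, ?_⟩
  · intro w hw hsum h₀
    have h1 := hblk w (fun h => hWX (hw h)) hsum h₀
    have h2 : σ h₀ (∑ h₁ : H₁, (σ.comp H₁.subtype) h₁ (w (h₀ * h₁))) = 0 := by
      rw [map_sum, ← h1]
      refine Finset.sum_congr rfl fun h₁ _ => ?_
      rw [map_mul]
      rfl
    have h3 : ∑ h₁ : H₁, (σ.comp H₁.subtype) h₁ (w (h₀ * h₁)) = 0 := by
      have := congrArg (σ h₀⁻¹) h2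
      rwa [← Module.End.mul_apply, ← map_mul, inv_mul_cancel, map_one, map_zero,
        Module.End.one_apply] at this
    have h4 := hi (fun h₁ : H₁ => w (h₀ * h₁)) (fun h₁ => hw _) h3 1
    simpa using h4
  · intro u
    constructor
    · intro hu
      have hP1 : ∀ g x, x ∈ W → ∃ w : H → V, (∀ h, w h ∈ W) ∧ σ g x = ∑ h, σ h (w h) := by
        intro g x hx
        refine ⟨Pi.single g x, ?_, (sum_single_aux σ g x).symm⟩
        intro h
        by_cases hh : h = g
        · subst hh; simpa using hx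
        · rw [Pi.single_eq_of_ne hh]; exact Submodule.zero_mem _
      have hP0 : ∃ w : H → V, (∀ h, w h ∈ W) ∧ (0 : V) = ∑ h, σ h (w h) :=
        ⟨fun _ => 0, fun _ => Submodule.zero_mem _, by simp⟩
      have hPadd : ∀ x y : V, (∃ w : H → V, (∀ h, w h ∈ W) ∧ x = ∑ h, σ h (w h)) →
          (∃ w : H → V, (∀ h, w h ∈ W) ∧ y = ∑ h, σ h (w h)) →
          ∃ w : H → V, (∀ h, w h ∈ W) ∧ x + y = ∑ h, σ h (w h) := by
        rintro x y ⟨w₁, hw₁, rfl⟩ ⟨w₂, hw₂, rfl⟩
        refine ⟨fun h => w₁ h + w₂ h, fun h => Submodule.add_mem _ (hw₁ h) (hw₂ h), ?_⟩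
        simp [Finset.sum_add_distrib]
      induction hu using Submodule.iSup_induction' with
      | mem h x hx =>
        obtain ⟨y, hy, rfl⟩ := hx
        obtain ⟨a, ha, rfl⟩ := (hs y).mp hy
        rw [map_sum]
        refine Finset.sum_induction _ (fun x => ∃ w : H → V, (∀ h, w h ∈ W) ∧ x = ∑ h, σ h (w h))
          hPadd hP0 ?_
        intro h₁ _
        have : σ h ((σ.comp H₁.subtype) h₁ (a h₁)) = σ (h * h₁) (a h₁) := by
          rw [map_mul]; rfl
        rw [this]
        exact hP1 _ _ (ha h₁)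
      | zero => exact hP0
      | add x y _ _ hx hy => exact hPadd x y hx hy
    · rintro ⟨w, hw, rfl⟩
      refine Submodule.sum_mem _ fun h _ => ?_
      exact Submodule.mem_iSup_of_mem h ⟨w h, hWX (hw h), rfl⟩

end Cfsg.Agent.Lib.Helper38.FF
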