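import Cfsg.Agent.Lib.Helper38.FF.Defs

set_option autoImplicit false

namespace Cfsg.Agent.Lib.Helper38.FF

open scoped BigOperators

theorem exists_theta {L Γ : Type*} [Field L] [Group Γ] [Fintype Γ] (τ : Γ →* (L →+* L))
    (hτ : Function.Injective τ) :
    ∃ θ : L, ∀ c : L, ∃ l : Γ → L, (∀ g g', τ g' (l g) = l g) ∧ c = ∑ g, l g * τ g θ := by
  classical
  let _ : MulSemiringAction Γ L := MulSemiringAction.compHom L τ
  have hsm : ∀ (g : Γ) (ℓ : L), g • ℓ = τ g ℓ := fun g ℓ => rfl
  have hf : FaithfulSMul Γ L := by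
    constructor
    intro g g' h
    apply hτ
    ext ℓ
    exact h ℓ
  let K := FixedPoints.subfield Γ L
  let b := IsGalois.normalBasis K L
  let E := FixedPoints.toAlgAutMulEquiv Γ L
  refine ⟨b 1, ?_⟩
  intro c
  refine ⟨fun g => ((b.repr c (E g) : K) : L), ?_, ?_⟩
  · intro g g'
    rw [← hsm]
    exact (b.repr c (E g)).2 g'
  · conv_lhs => rw [← b.sum_repr c]
    symm
    refine Fintype.sum_equiv E.toEquiv _ _ ?_
    intro g
    have h1 : b (E.toEquiv g) = (E g) (b 1) := IsGalois.normalBasis_apply (E g)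
    rw [h1]
    rfl

theorem dedekind_aux {L Γ : Type*} [Field L] [Group Γ] [Fintype Γ] (τ : Γ →* (L →+* L))
    (hτ : Function.Injective τ) (c : Γ → L) (hc : ∀ ℓ : L, ∑ g, c g * τ g ℓ = 0) : ∀ g, c g = 0 := by
  classical
  have h1 := linearIndependent_monoidHom L L
  have hinj : Function.Injective (fun g : Γ => ((τ g : L →+* L) : L →* L)) := by
    intro g g' h
    apply hτ
    ext ℓ
    exact DFunLike.congr_fun h ℓ
  have h2 := h1.comp _ hinj
  rw [Fintype.linearIndependent_iff] at h2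
  apply h2 c
  funext ℓ
  simpa using hc ℓ

theorem isUnit_P {L Γ : Type*} [Field L] [Group Γ] [Fintype Γ] [DecidableEq Γ] (τ : Γ →* (L →+* L))
    (hτ : Function.Injective τ) (θ : L)
    (hθ : ∀ c : L, ∃ l : Γ → L, (∀ g g', τ g' (l g) = l g) ∧ c = ∑ g, l g * τ g θ) :
    IsUnit (Matrix.of fun g h : Γ => τ (g * h) θ) := by
  rw [← Matrix.vecMul_injective_iff_isUnit]
  intro v w hvw
  have h0 : Matrix.vecMul (v - w) (Matrix.of fun g h : Γ => τ (g * h) θ) = 0 := by
    rw [Matrix.sub_vecMul]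
    exact sub_eq_zero.mpr hvw
  have h1 : ∀ h, ∑ g, (v - w) g * τ g (τ h θ) = 0 := by
    intro h
    have := congrFun h0 h
    simpa [Matrix.vecMul, dotProduct, map_mul] using this
  have h2 : ∀ g, (v - w) g = 0 := by
    apply dedekind_aux τ hτ
    intro ℓ
    obtain ⟨l, hl, rfl⟩ := hθ ℓ
    have : ∀ g, (v - w) g * τ g (∑ h, l h * τ h θ) = ∑ h, l h * ((v - w) g * τ g (τ h θ)) := by
      intro g
      rw [map_sum, Finset.mul_sum]
      refine Finset.sum_congr rfl fun h _ => ?_
      rw [map_mul, hl]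
      ring
    rw [Finset.sum_congr rfl fun g _ => this g, Finset.sum_comm]
    refine Finset.sum_eq_zero fun h _ => ?_
    rw [← Finset.mul_sum, h1, mul_zero]
  funext g
  exact sub_eq_zero.mp (h2 g)

theorem semilinear_free {L X Γ : Type*} [Field L] [AddCommGroup X] [Module L X] [Group Γ] [Fintype Γ]
    (τ : Γ →* (L →+* L)) (hτ : Function.Injective τ) (a : Γ →* AddMonoid.End X)
    (hsl : ∀ g ℓ x, a g (ℓ • x) = τ g ℓ • a g x) :
    ∃ θ : L,
      (∀ u : Γ → X, (∀ g g', a g' (u g) = u g) → ∑ g, τ g θ • u g = 0 → ∀ g, u g = 0) ∧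
      (∀ x : X, ∃ u : Γ → X, (∀ g g', a g' (u g) = u g) ∧ x = ∑ g, τ g θ • u g) := by
  classical
  obtain ⟨θ, hθ⟩ := exists_theta τ hτ
  have hP := isUnit_P τ hτ θ hθ
  set P : Matrix Γ Γ L := Matrix.of fun g h : Γ => τ (g * h) θ with hPdef
  have hPgh : ∀ g h, P g h = τ g (τ h θ) := by
    intro g h
    simp [hPdef, map_mul]
  have hdet : IsUnit P.det := (Matrix.isUnit_iff_isUnit_det P).mp hP
  have hPl : P⁻¹ * P = 1 := Matrix.nonsing_inv_mul P hdet
  have hPr : P * P⁻¹ = 1 := Matrix.mul_nonsing_inv P hdet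
  refine ⟨θ, ?_, ?_⟩
  · intro u hu hsum h'
    have h1 : ∀ g, ∑ h, P g h • u h = 0 := by
      intro g
      have := congrArg (a g) hsum
      rw [map_sum, map_zero] at this
      rw [← this]
      refine Finset.sum_congr rfl fun h _ => ?_
      rw [hsl, hu, hPgh]
    have h2 : ∑ h, (P⁻¹ * P) h' h • u h = 0 := by
      have : ∀ h, (P⁻¹ * P) h' h • u h = ∑ g, P⁻¹ h' g • (P g h • u h) := by
        intro h
        rw [Matrix.mul_apply, Finset.sum_smul]
        refine Finset.sum_congr rfl fun g _ => ?_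
        rw [mul_smul]
      rw [Finset.sum_congr rfl fun h _ => this h, Finset.sum_comm]
      refine Finset.sum_eq_zero fun g _ => ?_
      rw [← Finset.smul_sum, h1, smul_zero]
    rw [hPl] at h2
    simpa [Matrix.one_apply, ite_smul] using h2
  · intro x
    -- the trace
    let T : X → X := fun y => ∑ g, a g y
    have hT : ∀ g' y, a g' (T y) = T y := by
      intro g' y
      change a g' (∑ g, a g y) = ∑ g, a g y
      rw [map_sum]
      refine Fintype.sum_equiv (Equiv.mulLeft g') _ _ ?_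
      intro g
      simp [map_mul]
    let t : Γ → X := fun h => T (τ h θ • x)
    have ht : ∀ h, t h = ∑ g, P g h • a g x := by
      intro h
      change ∑ g, a g (τ h θ • x) = _
      refine Finset.sum_congr rfl fun g _ => ?_
      rw [hsl, hPgh]
    have hx : x = ∑ h, P⁻¹ h 1 • t h := by
      have h1 : ∀ h, P⁻¹ h 1 • t h = ∑ g, (P g h * P⁻¹ h 1) • a g x := by
        intro h
        rw [ht, Finset.smul_sum]
        refine Finset.sum_congr rfl fun g _ => ?_
        rw [smul_smul, mul_comm]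
      rw [Finset.sum_congr rfl fun h _ => h1 h, Finset.sum_comm]
      have h2 : ∀ g, ∑ h, (P g h * P⁻¹ h 1) • a g x = ((1 : Matrix Γ Γ L) g 1) • a g x := by
        intro g
        rw [← Finset.sum_smul, ← hPr, Matrix.mul_apply]
      rw [Finset.sum_congr rfl fun g _ => h2 g]
      simp [Matrix.one_apply, ite_smul]
    choose l hl hl2 using fun h : Γ => hθ (P⁻¹ h 1)
    refine ⟨fun g => ∑ h, l h g • t h, ?_, ?_⟩
    · intro g g'
      rw [map_sum]
      refine Finset.sum_congr rfl fun h _ => ?_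
      rw [hsl, hl, hT]
    · conv_lhs => rw [hx]
      have h3 : ∀ h, P⁻¹ h 1 • t h = ∑ g, τ g θ • (l h g • t h) := by
        intro h
        conv_lhs => rw [hl2 h]
        rw [Finset.sum_smul]
        refine Finset.sum_congr rfl fun g _ => ?_
        rw [smul_smul, mul_comm]
      rw [Finset.sum_congr rfl fun h _ => h3 h, Finset.sum_comm]
      refine Finset.sum_congr rfl fun g _ => ?_
      rw [Finset.smul_sum]

end Cfsg.Agent.Lib.Helper38.FF
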