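import Cfsg.Agent.Lib.Helper38.FF.Defs
import Cfsg.Agent.Lib.Helper38.FF.SL

set_option autoImplicit false

namespace Cfsg.Agent.Lib.Helper38.FF

open scoped BigOperators

variable {k : Type*} [Field k] {R : Type*} [CommRing R] [Algebra k R]
  {V : Type*} [AddCommGroup V] [Module k V] [Module R V] [IsScalarTower k R V]
  {H : Type*} [Group H] [Fintype H]

omit [Fintype H] in
theorem stab_mem_iff (τ : H →* (R ≃ₐ[k] R)) (𝔪 : Ideal R) (g : stab τ 𝔪) (r : R) :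
    τ g r ∈ 𝔪 ↔ r ∈ 𝔪 := ((mem_stab.mp g.2) r).symm

/-- the induced map on the residue ring -/
noncomputable def tauBarFun (τ : H →* (R ≃ₐ[k] R)) (𝔪 : Ideal R) (g : stab τ 𝔪) : (R ⧸ 𝔪) →+* (R ⧸ 𝔪) :=
  Ideal.quotientMap 𝔪 ((τ g : R ≃ₐ[k] R) : R →+* R) (fun r hr => (stab_mem_iff τ 𝔪 g r).mpr hr)

omit [Fintype H] in
theorem tauBarFun_mk (τ : H →* (R ≃ₐ[k] R)) (𝔪 : Ideal R) (g : stab τ 𝔪) (r : R) :
    tauBarFun τ 𝔪 g (Ideal.Quotient.mk 𝔪 r) = Ideal.Quotient.mk 𝔪 (τ g r) := rfl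

/-- the induced action on the residue ring -/
noncomputable def tauBar (τ : H →* (R ≃ₐ[k] R)) (𝔪 : Ideal R) : stab τ 𝔪 →* ((R ⧸ 𝔪) →+* (R ⧸ 𝔪)) where
  toFun g := tauBarFun τ 𝔪 g
  map_one' := by
    apply Ideal.Quotient.ringHom_ext
    ext r
    rw [RingHom.comp_apply, tauBarFun_mk]
    simp
  map_mul' := by
    intro g h
    apply Ideal.Quotient.ringHom_ext
    ext r
    rw [RingHom.comp_apply, RingHom.comp_apply, RingHom.mul_def, RingHom.comp_apply,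
      tauBarFun_mk, tauBarFun_mk, tauBarFun_mk]
    simp

omit [Fintype H] in
theorem tauBar_mk (τ : H →* (R ≃ₐ[k] R)) (𝔪 : Ideal R) (g : stab τ 𝔪) (r : R) :
    tauBar τ 𝔪 g (Ideal.Quotient.mk 𝔪 r) = Ideal.Quotient.mk 𝔪 (τ g r) := rfl

omit [Fintype H] [IsScalarTower k R V] in
theorem sigma_mem_tors (τ : H →* (R ≃ₐ[k] R)) (σ : Representation k H V)
    (hσ : ∀ h a v, σ h (a • v) = τ h a • σ h v) (𝔪 : Ideal R) (g : stab τ 𝔪) (x : V)
    (hx : x ∈ Submodule.torsionBySet R V (𝔪 : Set R)) :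
    σ g x ∈ Submodule.torsionBySet R V (𝔪 : Set R) := by
  rw [Submodule.mem_torsionBySet_iff] at hx ⊢
  intro b
  have h1 : (b : R) • σ g x = σ g (τ (g⁻¹ : stab τ 𝔪) (b : R) • x) := by
    rw [hσ, ← AlgEquiv.mul_apply, ← map_mul]
    simp
  rw [h1]
  have h2 : τ (g⁻¹ : stab τ 𝔪) (b : R) ∈ 𝔪 := (stab_mem_iff τ 𝔪 g⁻¹ b).mpr b.2
  rw [hx ⟨_, h2⟩, map_zero]

/-- the action on the torsion -/
noncomputable def actX (τ : H →* (R ≃ₐ[k] R)) (σ : Representation k H V)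
    (hσ : ∀ h a v, σ h (a • v) = τ h a • σ h v) (𝔪 : Ideal R) :
    stab τ 𝔪 →* AddMonoid.End (Submodule.torsionBySet R V (𝔪 : Set R)) where
  toFun g :=
    { toFun := fun x => ⟨σ g x, sigma_mem_tors τ σ hσ 𝔪 g x x.2⟩
      map_zero' := by ext; simp
      map_add' := by intro x y; ext; simp }
  map_one' := by
    ext x
    change σ ((1 : stab τ 𝔪) : H) (x : V) = x
    simp
  map_mul' := by
    intro g h
    ext x
    change σ ((g * h : stab τ 𝔪) : H) (x : V) = σ g (σ h (x : V))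
    simp

omit [Fintype H] [IsScalarTower k R V] in
theorem actX_coe (τ : H →* (R ≃ₐ[k] R)) (σ : Representation k H V)
    (hσ : ∀ h a v, σ h (a • v) = τ h a • σ h v) (𝔪 : Ideal R) (g : stab τ 𝔪)
    (x : Submodule.torsionBySet R V (𝔪 : Set R)) :
    ((actX τ σ hσ 𝔪 g x : Submodule.torsionBySet R V (𝔪 : Set R)) : V) = σ g x := rfl

omit [Fintype H] in
theorem loc_aux (τ : H →* (R ≃ₐ[k] R)) (σ : Representation k H V)
    (hσ : ∀ h a v, σ h (a • v) = τ h a • σ h v)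
    (hG : ∀ h : H, h ≠ 1 → ∃ c ∈ Ideal.span (Set.range fun a => τ h a - a), ∀ v : V, c • v = v)
    (𝔪 : Ideal R) (hm : 𝔪.IsMaximal) [Fintype (stab τ 𝔪)] (hne : tors k V 𝔪 ≠ ⊥) :
    ∃ t : R,
      (∀ u : stab τ 𝔪 → V, (∀ g, u g ∈ tors k V 𝔪) → (∀ g g' : stab τ 𝔪, σ g' (u g) = u g) →
        ∑ g : stab τ 𝔪, τ g t • u g = 0 → ∀ g, u g = 0) ∧
      (∀ x ∈ tors k V 𝔪, ∃ u : stab τ 𝔪 → V, (∀ g, u g ∈ tors k V 𝔪) ∧
        (∀ g g' : stab τ 𝔪, σ g' (u g) = u g) ∧ x = ∑ g : stab τ 𝔪, τ g t • u g) := by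
  classical
  let _ : Field (R ⧸ 𝔪) := Ideal.Quotient.field 𝔪
  have hinj : Function.Injective (tauBar τ 𝔪) := by
    rw [injective_iff_map_eq_one]
    intro h hh
    by_contra hne1
    have hne1' : (h : H) ≠ 1 := fun h0 => hne1 (Subtype.ext h0)
    obtain ⟨c, hc, hcv⟩ := hG h hne1'
    have hle : Ideal.span (Set.range fun a => τ (h : H) a - a) ≤ 𝔪 := by
      rw [Ideal.span_le]
      rintro _ ⟨r, rfl⟩
      have := DFunLike.congr_fun hh (Ideal.Quotient.mk 𝔪 r)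
      rw [tauBar_mk] at this
      exact (Ideal.Quotient.mk_eq_mk_iff_sub_mem _ _).mp this
    apply hne
    rw [eq_bot_iff]
    intro v hv
    rw [mem_tors] at hv
    rw [Submodule.mem_bot, ← hcv v]
    exact hv c (hle hc)
  have hsl : ∀ (g : stab τ 𝔪) (ℓ : R ⧸ 𝔪) (x : Submodule.torsionBySet R V (𝔪 : Set R)),
      actX τ σ hσ 𝔪 g (ℓ • x) = tauBar τ 𝔪 g ℓ • actX τ σ hσ 𝔪 g x := by
    intro g ℓ x
    obtain ⟨r, rfl⟩ := Ideal.Quotient.mk_surjective ℓ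
    rw [tauBar_mk]
    apply Subtype.ext
    change σ g (r • (x : V)) = τ g r • σ g (x : V)
    rw [hσ]
  obtain ⟨θ, h1, h2⟩ := semilinear_free (tauBar τ 𝔪) hinj (actX τ σ hσ 𝔪) hsl
  obtain ⟨t, rfl⟩ := Ideal.Quotient.mk_surjective θ
  refine ⟨t, ?_, ?_⟩
  · intro u hu hfix hsum g
    have := h1 (fun g => ⟨u g, hu g⟩) ?_ ?_ g
    · exact congrArg Subtype.val this
    · intro g g'
      apply Subtype.ext
      exact hfix g g'
    · apply Subtype.ext
      rw [Submodule.coe_sum, Submodule.coe_zero, ← hsum]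
      refine Finset.sum_congr rfl fun g _ => ?_
      rw [tauBar_mk]
      rfl
  · intro x hx
    obtain ⟨u, hu, hxu⟩ := h2 ⟨x, hx⟩
    refine ⟨fun g => (u g : V), fun g => (u g).2, ?_, ?_⟩
    · intro g g'
      exact congrArg Subtype.val (hu g g')
    · have := congrArg Subtype.val hxu
      rw [Submodule.coe_sum] at this
      change x = _ at this
      rw [this]
      refine Finset.sum_congr rfl fun g _ => ?_
      rw [tauBar_mk]
      rfl

theorem loc (τ : H →* (R ≃ₐ[k] R)) (σ : Representation k H V)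
    (hσ : ∀ h a v, σ h (a • v) = τ h a • σ h v)
    (hG : ∀ h : H, h ≠ 1 → ∃ c ∈ Ideal.span (Set.range fun a => τ h a - a), ∀ v : V, c • v = v)
    (𝔪 : Ideal R) (hm : 𝔪.IsMaximal) [Fintype (stab τ 𝔪)] (hne : tors k V 𝔪 ≠ ⊥) :
    FreeIn (σ.comp (stab τ 𝔪).subtype) (tors k V 𝔪) := by
  classical
  obtain ⟨t, h1, h2⟩ := loc_aux τ σ hσ hG 𝔪 hm hne
  let Fix : Submodule k V :=
    { carrier := {v | v ∈ tors k V 𝔪 ∧ ∀ g : stab τ 𝔪, σ g v = v}
      add_mem' := by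
        rintro x y ⟨hx, hx'⟩ ⟨hy, hy'⟩
        refine ⟨Submodule.add_mem _ hx hy, fun g => ?_⟩
        rw [map_add, hx', hy']
      zero_mem' := ⟨Submodule.zero_mem _, fun g => map_zero _⟩
      smul_mem' := by
        rintro c x ⟨hx, hx'⟩
        refine ⟨Submodule.smul_mem _ c hx, fun g => ?_⟩
        rw [map_smul, hx'] }
  have hFix : ∀ v, v ∈ Fix ↔ v ∈ tors k V 𝔪 ∧ ∀ g : stab τ 𝔪, σ g v = v := fun v => Iff.rfl
  have hsmul_tors : ∀ (r : R) (v : V), v ∈ tors k V 𝔪 → r • v ∈ tors k V 𝔪 := by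
    intro r v hv
    rw [mem_tors] at hv ⊢
    intro b hb
    rw [smul_comm, hv b hb, smul_zero]
  let mt : V →ₗ[k] V := (LinearMap.lsmul R V t).restrictScalars k
  have hmt : ∀ v, mt v = t • v := fun v => rfl
  refine ⟨Fix.map mt, ?_, ?_⟩
  · intro w hw hsum
    have hw' : ∀ g, ∃ u ∈ Fix, t • u = w g := fun g => hw g
    choose u hu huw using hw'
    have hu0 : ∀ g, u g = 0 := by
      apply h1 u (fun g => (hu g).1) (fun g g' => (hu g).2 g')
      rw [← hsum]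
      refine Finset.sum_congr rfl fun g _ => ?_
      rw [← huw]
      change _ = σ g (t • u g)
      rw [hσ, (hu g).2 g]
    intro g
    rw [← huw, hu0, smul_zero]
  · intro x
    constructor
    · intro hx
      obtain ⟨u, hu1, hu2, hxu⟩ := h2 x hx
      refine ⟨fun g => t • u g, fun g => ⟨u g, ⟨hu1 g, fun g' => hu2 g g'⟩, rfl⟩, ?_⟩
      rw [hxu]
      refine Finset.sum_congr rfl fun g _ => ?_
      change _ = σ g (t • u g)
      rw [hσ, hu2 g g]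
    · rintro ⟨w, hw, rfl⟩
      refine Submodule.sum_mem _ fun g _ => ?_
      obtain ⟨u, hu, huw⟩ := hw g
      rw [← huw]
      change σ g (t • u) ∈ _
      rw [hσ, hu.2 g]
      exact hsmul_tors _ _ hu.1

end Cfsg.Agent.Lib.Helper38.FF
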