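import Cfsg.Agent.Lib.Helper38.FF.Defs

set_option autoImplicit false

namespace Cfsg.Agent.Lib.Helper38.FF

open scoped BigOperators

variable {k : Type*} [Field k] {R : Type*} [CommRing R] [Algebra k R]
  {V : Type*} [AddCommGroup V] [Module k V] [Module R V] [IsScalarTower k R V]
  {H : Type*} [Group H] [Fintype H]

theorem exists_max [Nontrivial V] [FiniteDimensional k V] :
    ∃ 𝔪 : Ideal R, 𝔪.IsMaximal ∧ tors k V 𝔪 ≠ ⊥ := by
  classical
  have hart : IsArtinian R V := isArtinian_of_tower k inferInstance
  obtain ⟨S, hS⟩ := IsAtomic.exists_atom (Submodule R V)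
  have hsimple : IsSimpleModule R S := isSimpleModule_iff_isAtom.mpr hS
  have hnt : Nontrivial S := IsSimpleModule.nontrivial R S
  obtain ⟨s, hs⟩ := exists_ne (0 : S)
  refine ⟨LinearMap.ker (LinearMap.toSpanSingleton R S s), IsSimpleModule.ker_toSpanSingleton_isMaximal R hs, ?_⟩
  intro hbot
  apply hs
  have : (s : V) ∈ tors k V (LinearMap.ker (LinearMap.toSpanSingleton R S s)) := by
    rw [mem_tors]
    intro a ha
    have h1 : a • s = 0 := by simpa using ha
    have := congrArg Subtype.val h1
    simpa using this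
  rw [hbot] at this
  exact Subtype.ext ((Submodule.mem_bot k).mp this)

end Cfsg.Agent.Lib.Helper38.FF
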