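import Cfsg.Agent.Lib.Helper38.FF.Defs
import Cfsg.Agent.Lib.Helper38.FF.MAX
import Cfsg.Agent.Lib.Helper38.FF.BLK
import Cfsg.Agent.Lib.Helper38.FF.LOC
import Cfsg.Agent.Lib.Helper38.FF.INDUP
import Cfsg.Agent.Lib.Helper38.FF.EXT

set_option autoImplicit false

namespace Cfsg.Agent.Lib.Helper38.FF

open scoped BigOperators

theorem freeIn_top_of_subsingleton_core {k : Type*} [Field k] {V : Type*} [AddCommGroup V] [Module k V]
    {H : Type*} [Group H] [Fintype H] (σ : Representation k H V) [Subsingleton V] : FreeIn σ ⊤ := by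
  refine ⟨⊥, ?_, ?_⟩
  · intro w _ _ h
    exact Subsingleton.elim _ _
  · intro u
    constructor
    · intro _
      exact ⟨fun _ => 0, fun _ => Submodule.zero_mem _, Subsingleton.elim _ _⟩
    · intro _
      trivial

section quot
variable {k : Type*} [Field k] {R : Type*} [CommRing R] [Algebra k R]
  {V : Type*} [AddCommGroup V] [Module k V] [Module R V] [IsScalarTower k R V]
  {H : Type*} [Group H]

/-- the induced `k`-linear map on the quotient by an `R`-submodule -/
noncomputable def quotMap (U : Submodule R V) (f : V →ₗ[k] V) (hf : ∀ u ∈ U, f u ∈ U) :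
    (V ⧸ U) →ₗ[k] (V ⧸ U) :=
  (Submodule.Quotient.restrictScalarsEquiv k U).toLinearMap ∘ₗ
    (Submodule.mapQ (U.restrictScalars k) (U.restrictScalars k) f (fun u hu => hf u hu)) ∘ₗ
    (Submodule.Quotient.restrictScalarsEquiv k U).symm.toLinearMap

theorem quotMap_mk (U : Submodule R V) (f : V →ₗ[k] V) (hf : ∀ u ∈ U, f u ∈ U) (v : V) :
    quotMap U f hf (Submodule.Quotient.mk v) = Submodule.Quotient.mk (f v) := by
  simp only [quotMap, LinearMap.comp_apply, LinearEquiv.coe_coe,
    Submodule.Quotient.restrictScalarsEquiv_symm_mk]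
  have h1 : ((Submodule.restrictScalars k U).mapQ (Submodule.restrictScalars k U) f
      (fun u hu => hf u hu)) (Submodule.Quotient.mk v) = Submodule.Quotient.mk (f v) :=
    Submodule.mapQ_apply _ _ _ _
  rw [h1, Submodule.Quotient.restrictScalarsEquiv_mk]

/-- the quotient representation -/
noncomputable def quotRep (U : Submodule R V) (σ : Representation k H V) (hU : ∀ h, ∀ u ∈ U, σ h u ∈ U) :
    Representation k H (V ⧸ U) where
  toFun h := quotMap U (σ h) (hU h)
  map_one' := by
    apply LinearMap.ext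
    intro x
    obtain ⟨v, rfl⟩ := Submodule.Quotient.mk_surjective U x
    rw [quotMap_mk]
    simp
  map_mul' := by
    intro g h
    apply LinearMap.ext
    intro x
    obtain ⟨v, rfl⟩ := Submodule.Quotient.mk_surjective U x
    rw [Module.End.mul_apply, quotMap_mk, quotMap_mk, quotMap_mk]
    simp

theorem quotRep_mk (U : Submodule R V) (σ : Representation k H V) (hU : ∀ h, ∀ u ∈ U, σ h u ∈ U)
    (h : H) (v : V) :
    quotRep U σ hU h (Submodule.Quotient.mk v) = Submodule.Quotient.mk (σ h v) :=
  quotMap_mk U (σ h) (hU h) v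

end quot

theorem core {k : Type*} [Field k] {R : Type*} [CommRing R] [Algebra k R]
    {H : Type*} [Group H] [Fintype H] (τ : H →* (R ≃ₐ[k] R))
    {V : Type*} [AddCommGroup V] [Module k V] [Module R V] [IsScalarTower k R V] [FiniteDimensional k V]
    (σ : Representation k H V) (hσ : ∀ h a v, σ h (a • v) = τ h a • σ h v)
    (hG : ∀ h : H, h ≠ 1 → ∃ c ∈ Ideal.span (Set.range fun a => τ h a - a), ∀ v : V, c • v = v) :
    FreeIn σ ⊤ := by
  classical
  induction hn : Module.finrank k V using Nat.strong_induction_on generalizing V with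
  | _ n ih =>
  rcases subsingleton_or_nontrivial V with hs | hnt
  · exact freeIn_top_of_subsingleton_core _
  obtain ⟨𝔪, hm, hne⟩ := exists_max (k := k) (R := R) (V := V)
  let _ : Fintype (stab τ 𝔪) := Fintype.ofFinite _
  have hX := loc τ σ hσ hG 𝔪 hm hne
  have hU := freeIn_induce σ (stab τ 𝔪) (tors k V 𝔪) hX
    (fun y hy hsum h₀ => blk τ σ hσ 𝔪 hm y hy hsum h₀)
  set U₀ : Submodule k V := ⨆ h : H, (tors k V 𝔪).map (σ h) with hU₀
  have hsm : ∀ (a : R), ∀ u ∈ U₀, a • u ∈ U₀ := by
    intro a u hu
    induction hu using Submodule.iSup_induction' with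
    | mem h x hx =>
      obtain ⟨y, hy, rfl⟩ := hx
      have h1 : a • σ h y = σ h (τ h⁻¹ a • y) := by
        rw [hσ, ← AlgEquiv.mul_apply, ← map_mul]
        simp
      rw [h1]
      apply Submodule.mem_iSup_of_mem h
      refine ⟨_, ?_, rfl⟩
      have hy' : y ∈ tors k V 𝔪 := hy
      change _ ∈ tors k V 𝔪
      rw [mem_tors] at hy' ⊢
      intro b hb
      rw [smul_comm, hy' b hb, smul_zero]
    | zero => rw [smul_zero]; exact Submodule.zero_mem _
    | add x y _ _ hx hy => rw [smul_add]; exact Submodule.add_mem _ hx hy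
  have hinv : ∀ (g : H), ∀ u ∈ U₀, σ g u ∈ U₀ := by
    intro g u hu
    induction hu using Submodule.iSup_induction' with
    | mem h x hx =>
      obtain ⟨y, hy, rfl⟩ := hx
      rw [← Module.End.mul_apply, ← map_mul]
      apply Submodule.mem_iSup_of_mem (g * h)
      exact ⟨y, hy, rfl⟩
    | zero => rw [map_zero]; exact Submodule.zero_mem _
    | add x y _ _ hx hy => rw [map_add]; exact Submodule.add_mem _ hx hy
  let U : Submodule R V :=
    { carrier := U₀
      add_mem' := fun hx hy => Submodule.add_mem _ hx hy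
      zero_mem' := Submodule.zero_mem _
      smul_mem' := fun a u hu => hsm a u hu }
  have hmemU : ∀ v, v ∈ U ↔ v ∈ U₀ := fun v => Iff.rfl
  let π : V →ₗ[k] (V ⧸ U) := (U.mkQ).restrictScalars k
  have hπ : Function.Surjective π := Submodule.mkQ_surjective U
  have hkerπ : LinearMap.ker π = U₀ := by
    ext v
    rw [LinearMap.mem_ker]
    change Submodule.Quotient.mk v = 0 ↔ _
    rw [Submodule.Quotient.mk_eq_zero]
    rfl
  have hfd : FiniteDimensional k (V ⧸ U) := Module.Finite.of_surjective π hπ
  have hlt : Module.finrank k (V ⧸ U) < n := by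
    have h1 := LinearMap.finrank_range_add_finrank_ker π
    rw [LinearMap.range_eq_top.mpr hπ, finrank_top, hkerπ, hn] at h1
    have h2 : 0 < Module.finrank k U₀ := by
      rw [Module.finrank_pos_iff, Submodule.nontrivial_iff_ne_bot]
      intro hbot
      apply hne
      rw [eq_bot_iff, ← hbot]
      intro x hx
      apply Submodule.mem_iSup_of_mem (1 : H)
      exact ⟨x, hx, by simp⟩
    omega
  have h₂ : FreeIn (quotRep U σ hinv) ⊤ := by
    refine ih _ hlt (quotRep U σ hinv) ?_ ?_ rfl
    · intro h a x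
      obtain ⟨v, rfl⟩ := Submodule.Quotient.mk_surjective U x
      rw [← Submodule.Quotient.mk_smul, quotRep_mk, quotRep_mk, hσ, Submodule.Quotient.mk_smul]
    · intro h hh
      obtain ⟨c, hc, hcv⟩ := hG h hh
      refine ⟨c, hc, ?_⟩
      intro x
      obtain ⟨v, rfl⟩ := Submodule.Quotient.mk_surjective U x
      rw [← Submodule.Quotient.mk_smul, hcv]
  refine freeIn_top_of_ker σ (quotRep U σ hinv) π hπ ?_ ?_ h₂
  · intro h v
    exact (quotRep_mk U σ hinv h v).symm
  · rw [hkerπ]
    exact hU

end Cfsg.Agent.Lib.Helper38.FF
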