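import Cfsg.Agent.Lib.Helper38.FF.Defs
import Cfsg.Agent.Lib.Helper38.FF.CORE

set_option autoImplicit false

namespace Cfsg.Agent.Lib.Helper38.FF

open scoped BigOperators

/-- the action of `H` on the group algebra of `B` -/
noncomputable def tauAlg (k : Type*) [Field k] {H : Type*} [Group H] {B : Type*} [CommGroup B]
    (φ : H →* MulAut B) : H →* (MonoidAlgebra k B ≃ₐ[k] MonoidAlgebra k B) :=
  (MonoidAlgebra.domCongrAut (R := k) (A := k) (M := B)).comp φ

theorem tauAlg_single (k : Type*) [Field k] {H : Type*} [Group H] {B : Type*} [CommGroup B]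
    (φ : H →* MulAut B) (h : H) (b : B) (c : k) :
    tauAlg k φ h (MonoidAlgebra.single b c) = MonoidAlgebra.single (φ h b) c := by
  simp [tauAlg]

theorem free_of_abelian {k : Type*} [Field k] {V : Type*} [AddCommGroup V] [Module k V] [FiniteDimensional k V]
    {H : Type*} [Group H] [Fintype H] {B : Type*} [CommGroup B] [Fintype B]
    (φ : H →* MulAut B) (β : Representation k B V) (σ : Representation k H V)
    (hc : ∀ h b v, σ h (β b v) = β (φ h b) (σ h v))
    (hfpf : ∀ h b, φ h b = b → h = 1 ∨ b = 1)
    (hcard : (Fintype.card B : k) ≠ 0)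
    (hfix : ∀ v, (∀ b, β b v = v) → v = 0) : FreeIn σ ⊤ := by
  classical
  let _ : Module (MonoidAlgebra k B) V := Module.compHom V β.asAlgebraHom.toRingHom
  have hsm : ∀ (x : MonoidAlgebra k B) (v : V), x • v = β.asAlgebraHom x v := fun _ _ => rfl
  have hst : IsScalarTower k (MonoidAlgebra k B) V := by
    constructor
    intro c x v
    rw [hsm, hsm, map_smul]
    rfl
  have havg : ∀ v, ∑ b, β b v = 0 := by
    intro v
    apply hfix
    intro b
    rw [map_sum]
    refine Fintype.sum_equiv (Equiv.mulLeft b) _ _ ?_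
    intro x
    simp [map_mul]
  refine core (tauAlg k φ) σ ?_ ?_
  · intro h a v
    induction a using MonoidAlgebra.induction_on with
    | of b =>
      rw [hsm, hsm]
      have : tauAlg k φ h (MonoidAlgebra.of k B b) = MonoidAlgebra.of k B (φ h b) := by
        simp [MonoidAlgebra.of_apply, tauAlg_single]
      rw [this, Representation.asAlgebraHom_of, Representation.asAlgebraHom_of, hc]
    | add x y hx hy =>
      rw [add_smul, map_add, map_add, add_smul, hx, hy]
    | smul c x hx =>
      rw [smul_assoc, LinearMap.map_smul, hx, map_smul (tauAlg k φ h) c x, smul_assoc]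
  · intro h hh
    let γ : B → B := fun b => b⁻¹ * φ h b
    have hγ : Function.Bijective γ := by
      rw [← Finite.injective_iff_bijective]
      intro b b' hbb
      have h1 : φ h (b * b'⁻¹) = b * b'⁻¹ := by
        rw [map_mul, map_inv]
        have h2 : b⁻¹ * φ h b = b'⁻¹ * φ h b' := hbb
        have h3 : φ h b = b * (b'⁻¹ * φ h b') := by rw [← h2]; group
        rw [h3]
        have : b * (b'⁻¹ * φ h b') * (φ h b')⁻¹ = b * b'⁻¹ := by group
        exact this
      rcases hfpf h _ h1 with h4 | h4
      · exact absurd h4 hh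
      · exact mul_inv_eq_one.mp h4
    refine ⟨(Fintype.card B : k)⁻¹ • ∑ b, (1 - MonoidAlgebra.of k B (γ b)), ?_, ?_⟩
    · apply Submodule.smul_of_tower_mem
      refine Submodule.sum_mem _ fun b _ => ?_
      have h1 : (1 : MonoidAlgebra k B) - MonoidAlgebra.of k B (γ b) =
          (- MonoidAlgebra.of k B b⁻¹) * (tauAlg k φ h (MonoidAlgebra.of k B b) - MonoidAlgebra.of k B b) := by
        have : tauAlg k φ h (MonoidAlgebra.of k B b) = MonoidAlgebra.of k B (φ h b) := by
          simp [MonoidAlgebra.of_apply, tauAlg_single]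
        rw [this, neg_mul, mul_sub, ← map_mul, ← map_mul, inv_mul_cancel, map_one]
        ring
      rw [h1]
      apply Ideal.mul_mem_left
      apply Ideal.subset_span
      exact ⟨_, rfl⟩
    · intro v
      rw [hsm, map_smul, map_sum, LinearMap.smul_apply, LinearMap.sum_apply]
      have h1 : ∀ b, β.asAlgebraHom (1 - MonoidAlgebra.of k B (γ b)) v = v - β (γ b) v := by
        intro b
        rw [map_sub, map_one, Representation.asAlgebraHom_of]
        rfl
      rw [Finset.sum_congr rfl fun b _ => h1 b, Finset.sum_sub_distrib]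
      have h2 : ∑ b, β (γ b) v = 0 := by
        rw [← havg v]
        exact Fintype.sum_bijective γ hγ _ _ fun _ => rfl
      rw [h2, sub_zero, Finset.sum_const, Finset.card_univ, ← Nat.cast_smul_eq_nsmul k, smul_smul,
        inv_mul_cancel₀ hcard, one_smul]

end Cfsg.Agent.Lib.Helper38.FF
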