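import Cfsg.Agent.Lib.Helper38.FF.Defs

set_option autoImplicit false

namespace Cfsg.Agent.Lib.Helper38.FF

open scoped BigOperators

variable {k : Type*} [Field k] {V : Type*} [AddCommGroup V] [Module k V] {H : Type*} [Group H] [Fintype H]

theorem freeIn_range {V₁ : Type*} [AddCommGroup V₁] [Module k V₁]
    (σ₁ : Representation k H V₁) (σ : Representation k H V) (ι : V₁ →ₗ[k] V)
    (hι : Function.Injective ι) (hc : ∀ h v, ι (σ₁ h v) = σ h (ι v))
    (h₁ : FreeIn σ₁ ⊤) : FreeIn σ (LinearMap.range ι) := by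
  classical
  obtain ⟨W₁, hi₁, hs₁⟩ := h₁
  refine ⟨W₁.map ι, ?_, ?_⟩
  · intro w hw hsum
    have hw' : ∀ h, ∃ a ∈ W₁, ι a = w h := fun h => hw h
    choose a ha hab using hw'
    have ha0 : ∀ h, a h = 0 := by
      apply hi₁ a ha
      apply hι
      rw [map_zero, map_sum, ← hsum]
      refine Finset.sum_congr rfl fun h _ => ?_
      rw [hc, hab]
    intro h
    rw [← hab, ha0, map_zero]
  · intro u
    constructor
    · rintro ⟨x, rfl⟩
      obtain ⟨a, ha, hxa⟩ := (hs₁ x).mp trivial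
      refine ⟨fun h => ι (a h), fun h => ⟨a h, ha h, rfl⟩, ?_⟩
      rw [hxa, map_sum]
      refine Finset.sum_congr rfl fun h _ => ?_
      rw [hc]
    · rintro ⟨w, hw, rfl⟩
      have hw' : ∀ h, ∃ a ∈ W₁, ι a = w h := fun h => hw h
      choose a ha hab using hw'
      refine ⟨∑ h, σ₁ h (a h), ?_⟩
      rw [map_sum]
      refine Finset.sum_congr rfl fun h _ => ?_
      rw [hc, hab]

end Cfsg.Agent.Lib.Helper38.FF
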