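import Cfsg.Agent.Lib.Helper38.FF.Defs
import Cfsg.Agent.Lib.Helper38.FF.ABEL
import Cfsg.Agent.Lib.Helper38.FF.RES

set_option autoImplicit false

namespace Cfsg.Agent.Lib.Helper38.FF

open scoped BigOperators

/-- conjugation action on a normalised subgroup -/
def conjOn {H G' : Type*} [Group H] [Group G'] (Bb : Subgroup G') (F : H →* G')
    (hn : ∀ h, ∀ x ∈ Bb, F h * x * (F h)⁻¹ ∈ Bb) : H →* MulAut Bb where
  toFun h :=
    { toFun := fun x => ⟨F h * x * (F h)⁻¹, hn h x x.2⟩
      invFun := fun x => ⟨(F h)⁻¹ * x * F h, by have := hn h⁻¹ x x.2; simpa using this⟩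
      left_inv := by intro x; ext; simp [mul_assoc]
      right_inv := by intro x; ext; simp [mul_assoc]
      map_mul' := by intro x y; ext; simp [mul_assoc] }
  map_one' := by ext; simp
  map_mul' := by intro g h; ext; simp [mul_assoc]

theorem conjOn_coe {H G' : Type*} [Group H] [Group G'] (Bb : Subgroup G') (F : H →* G')
    (hn : ∀ h, ∀ x ∈ Bb, F h * x * (F h)⁻¹ ∈ Bb) (h : H) (x : Bb) :
    ((conjOn Bb F hn h x : Bb) : G') = F h * x * (F h)⁻¹ := rfl

theorem free_of_comm_subgroup {k : Type*} [Field k] {V : Type*} [AddCommGroup V] [Module k V]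
    [FiniteDimensional k V] {H : Type*} [Group H] [Fintype H] {G' : Type*} [Group G']
    (Bb : Subgroup G') [Finite Bb] (hBc : ∀ x ∈ Bb, ∀ y ∈ Bb, x * y = y * x) (F : H →* G')
    (hn : ∀ h, ∀ x ∈ Bb, F h * x * (F h)⁻¹ ∈ Bb)
    (β' : Representation k G' V)
    (hfpf : ∀ h, ∀ x ∈ Bb, F h * x * (F h)⁻¹ = x → h = 1 ∨ x = 1)
    (hcard : (Nat.card Bb : k) ≠ 0)
    (hfix : ∀ v, (∀ b ∈ Bb, β' b v = v) → v = 0) : FreeIn (β'.comp F) ⊤ := by
  classical
  let _ : CommGroup Bb :=
    { (inferInstance : Group Bb) with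
      mul_comm := fun x y => Subtype.ext (hBc x x.2 y y.2) }
  let _ : Fintype Bb := Fintype.ofFinite _
  refine free_of_abelian (conjOn Bb F hn) (β'.comp Bb.subtype) (β'.comp F) ?_ ?_ ?_ ?_
  · intro h b v
    change β' (F h) (β' b v) = β' (F h * b * (F h)⁻¹) (β' (F h) v)
    rw [← Module.End.mul_apply, ← Module.End.mul_apply, ← map_mul, ← map_mul]
    congr 2
    group
  · intro h b hb
    rcases hfpf h b b.2 (congrArg Subtype.val hb) with h1 | h1
    · exact Or.inl h1
    · exact Or.inr (Subtype.ext h1)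
  · rw [← Nat.card_eq_fintype_card]
    exact hcard
  · intro v hv
    exact hfix v fun b hb => hv ⟨b, hb⟩

/-- restriction of a representation to an invariant subspace -/
def restrComm {k : Type*} [Field k] {A : Type*} [Group A] {V : Type*} [AddCommGroup V] [Module k V]
    (ρ : Representation k A V) (U : Submodule k V) (hU : ∀ a : A, ∀ u ∈ U, ρ a u ∈ U) :
    Representation k A U where
  toFun a := (ρ a).restrict (hU a)
  map_one' := by ext; simp
  map_mul' := by intros; ext; simp

theorem freeIn_of_comm {k : Type*} [Field k] {A : Type*} [Group A] [Finite A] (B Hc : Subgroup A) [Fintype Hc]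
    (hnorm : ∀ h ∈ Hc, ∀ b ∈ B, h * b * h⁻¹ ∈ B)
    (hfpf : ∀ h ∈ Hc, ∀ b ∈ B, h * b * h⁻¹ = b → h = 1 ∨ b = 1)
    (hcard : (Nat.card B : k) ≠ 0)
    {V : Type*} [AddCommGroup V] [Module k V] [FiniteDimensional k V] (ρ : Representation k A V)
    (U : Submodule k V) (hU : ∀ a : A, ∀ u ∈ U, ρ a u ∈ U)
    (hcomm : ∀ x ∈ B, ∀ y ∈ B, ∀ u ∈ U, ρ x (ρ y u) = ρ y (ρ x u))
    (hfix : ∀ u ∈ U, (∀ b ∈ B, ρ b u = u) → u = 0) : FreeIn (ρ.comp Hc.subtype) U := by
  classical
  let ρU : Representation k A U := restrComm ρ U hU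
  let F' : A →* (Module.End k U)ˣ := ρU.asGroupHom
  let f : B →* (Module.End k U)ˣ := F'.comp B.subtype
  have hF' : ∀ (a : A) (u : U), (((F' a : (Module.End k U)ˣ) : Module.End k U) u : V) = ρ a u := by
    intro a u
    rfl
  let β' : Representation k (Module.End k U)ˣ U := Units.coeHom _
  have hfin : Finite f.range := Finite.of_surjective f.rangeRestrict f.rangeRestrict_surjective
  have key : FreeIn (β'.comp (F'.comp Hc.subtype)) ⊤ := by
    refine free_of_comm_subgroup f.range ?_ (F'.comp Hc.subtype) ?_ β' ?_ ?_ ?_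
    · rintro _ ⟨x, rfl⟩ _ ⟨y, rfl⟩
      apply Units.ext
      apply LinearMap.ext
      intro u
      apply Subtype.ext
      exact hcomm x x.2 y y.2 u u.2
    · rintro h _ ⟨b, rfl⟩
      refine ⟨⟨h * b * (h : A)⁻¹, hnorm h h.2 b b.2⟩, ?_⟩
      change F' (h * b * (h : A)⁻¹) = F' h * F' b * (F' h)⁻¹
      rw [map_mul, map_mul, map_inv]
    · rintro h _ ⟨b, rfl⟩ hx
      by_cases hh : h = 1
      · exact Or.inl hh
      right
      have hh' : (h : A) ≠ 1 := fun h0 => hh (Subtype.ext h0)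
      let c : B → B := fun b => ⟨h * b * (h : A)⁻¹, hnorm h h.2 b b.2⟩
      have hfc : ∀ b, f (c b) = F' h * f b * (F' h)⁻¹ := by
        intro b
        change F' (h * b * (h : A)⁻¹) = F' h * F' b * (F' h)⁻¹
        rw [map_mul, map_mul, map_inv]
      let γ : B → B := fun b => b⁻¹ * c b
      have hγinj : Function.Injective γ := by
        intro b b' hbb
        have h1 : (b : A)⁻¹ * (h * b * (h : A)⁻¹) = (b' : A)⁻¹ * (h * b' * (h : A)⁻¹) :=
          congrArg Subtype.val hbb
        have h2 : (h : A) * (b' * (b : A)⁻¹) * (h : A)⁻¹ = b' * (b : A)⁻¹ := by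
          have h3 : (h : A) * b' * (h : A)⁻¹ = b' * ((b : A)⁻¹ * (h * b * (h : A)⁻¹)) := by
            rw [h1]; group
          calc (h : A) * (b' * (b : A)⁻¹) * (h : A)⁻¹
              = ((h : A) * b' * (h : A)⁻¹) * ((h : A) * b * (h : A)⁻¹)⁻¹ := by group
            _ = b' * ((b : A)⁻¹ * (h * b * (h : A)⁻¹)) * ((h : A) * b * (h : A)⁻¹)⁻¹ := by rw [h3]
            _ = b' * (b : A)⁻¹ := by group
        rcases hfpf h h.2 _ (B.mul_mem b'.2 (B.inv_mem b.2)) h2 with h4 | h4
        · exact absurd h4 hh'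
        · apply Subtype.ext
          exact (mul_inv_eq_one.mp h4).symm
      have hfγ : ∀ b, f (γ b) = (f b)⁻¹ * (F' h * f b * (F' h)⁻¹) := by
        intro b
        change f (b⁻¹ * c b) = _
        rw [map_mul, map_inv, hfc]
      have hγK : ∀ x : f.ker, γ x ∈ f.ker := by
        intro x
        rw [MonoidHom.mem_ker, hfγ, MonoidHom.mem_ker.mp x.2]
        simp
      let γK : f.ker → f.ker := fun x => ⟨γ x, hγK x⟩
      have hγKs : Function.Surjective γK :=
        Finite.injective_iff_surjective.mp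
          (fun x y hxy => Subtype.ext (hγinj (congrArg Subtype.val hxy)))
      have hb : γ b ∈ f.ker := by
        rw [MonoidHom.mem_ker, hfγ]
        have hx' : F' h * f b * (F' h)⁻¹ = f b := hx
        rw [hx', inv_mul_cancel]
      obtain ⟨k', hk'⟩ := hγKs ⟨γ b, hb⟩
      have h5 : (k' : B) = b := hγinj (congrArg Subtype.val hk')
      rw [← h5]
      exact MonoidHom.mem_ker.mp k'.2
    · intro h0
      obtain ⟨m, hm⟩ := Subgroup.card_range_dvd f
      apply hcard
      rw [hm, Nat.cast_mul, h0, zero_mul]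
    · intro v hv
      apply Subtype.ext
      apply hfix v v.2
      intro b hb
      exact congrArg Subtype.val (hv (f ⟨b, hb⟩) ⟨_, rfl⟩)
  have h6 := freeIn_range (β'.comp (F'.comp Hc.subtype)) (ρ.comp Hc.subtype) U.subtype
    Subtype.val_injective (fun h v => rfl) key
  rwa [Submodule.range_subtype] at h6

end Cfsg.Agent.Lib.Helper38.FF
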