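import Mathlib

set_option autoImplicit false

/-! Definitions for the ladder FF (S4396): free modules over a Frobenius complement. -/

namespace Cfsg.Agent.Lib.Helper38.FF

open scoped BigOperators

/-- `U` is a free `H`-subspace: `U` is the direct sum of the `σ h W`, `h ∈ H` (elementwise form). -/
def FreeIn {k : Type*} [Field k] {V : Type*} [AddCommGroup V] [Module k V] {H : Type*} [Group H] [Fintype H]
    (σ : Representation k H V) (U : Submodule k V) : Prop :=
  ∃ W : Submodule k V,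
    (∀ w : H → V, (∀ h, w h ∈ W) → ∑ h, σ h (w h) = 0 → ∀ h, w h = 0) ∧
    (∀ u : V, u ∈ U ↔ ∃ w : H → V, (∀ h, w h ∈ W) ∧ u = ∑ h, σ h (w h))

/-- the `𝔪`-torsion subspace, as a `k`-subspace -/
def tors (k : Type*) [Field k] {R : Type*} [CommRing R] [Algebra k R]
    (V : Type*) [AddCommGroup V] [Module k V] [Module R V] [IsScalarTower k R V] (𝔪 : Ideal R) :
    Submodule k V :=
  (Submodule.torsionBySet R V (𝔪 : Set R)).restrictScalars k

theorem mem_tors {k : Type*} [Field k] {R : Type*} [CommRing R] [Algebra k R]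
    {V : Type*} [AddCommGroup V] [Module k V] [Module R V] [IsScalarTower k R V] {𝔪 : Ideal R} {v : V} :
    v ∈ tors k V 𝔪 ↔ ∀ a ∈ 𝔪, a • v = 0 := by
  unfold tors
  rw [Submodule.restrictScalars_mem, Submodule.mem_torsionBySet_iff]
  constructor
  · intro h a ha
    exact h ⟨a, ha⟩
  · intro h a
    exact h a.1 a.2

/-- stabiliser of an ideal under a group of algebra automorphisms -/
def stab {k : Type*} [Field k] {R : Type*} [CommRing R] [Algebra k R] {H : Type*} [Group H]
    (τ : H →* (R ≃ₐ[k] R)) (𝔪 : Ideal R) : Subgroup H where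
  carrier := {h | ∀ a, a ∈ 𝔪 ↔ τ h a ∈ 𝔪}
  one_mem' := by intro a; simp
  mul_mem' := by
    intro x y hx hy a
    rw [map_mul]
    exact (hy a).trans (hx _)
  inv_mem' := by
    intro x hx a
    have := hx (τ x⁻¹ a)
    have h2 : τ x (τ x⁻¹ a) = a := by
      rw [← AlgEquiv.mul_apply, ← map_mul]; simp
    rw [h2] at this
    exact this.symm

theorem mem_stab {k : Type*} [Field k] {R : Type*} [CommRing R] [Algebra k R] {H : Type*} [Group H]
    {τ : H →* (R ≃ₐ[k] R)} {𝔪 : Ideal R} {h : H} : h ∈ stab τ 𝔪 ↔ ∀ a, a ∈ 𝔪 ↔ τ h a ∈ 𝔪 := Iff.rfl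

end Cfsg.Agent.Lib.Helper38.FF
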