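import Cfsg.Agent.Lib.Helper38.FF.Defs

set_option autoImplicit false

namespace Cfsg.Agent.Lib.Helper38.FF

open scoped BigOperators

variable {k : Type*} [Field k] {V : Type*} [AddCommGroup V] [Module k V] {H : Type*} [Group H] [Fintype H]

theorem isInternal_of_freeIn [DecidableEq H] (σ : Representation k H V) (h : FreeIn σ ⊤) :
    ∃ W : Submodule k V, DirectSum.IsInternal (fun h : H => W.map (σ h)) := by
  obtain ⟨W, hi, hs⟩ := h
  refine ⟨W, ?_⟩
  rw [DirectSum.isInternal_submodule_iff_iSupIndep_and_iSup_eq_top]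
  constructor
  · rw [iSupIndep_iff_finsetSum_eq_zero_imp_eq_zero]
    intro s v hv hsum i his
    have hv' : ∀ h : H, ∃ a ∈ W, (h ∈ s → σ h a = v h) ∧ (h ∉ s → a = 0) := by
      intro h
      by_cases hh : h ∈ s
      · obtain ⟨a, ha, hav⟩ := hv h hh
        exact ⟨a, ha, fun _ => hav, fun h' => absurd hh h'⟩
      · exact ⟨0, Submodule.zero_mem _, fun h' => absurd h' hh, fun _ => rfl⟩
    choose a ha ha1 ha2 using hv'
    have ha0 : ∀ h, a h = 0 := by
      apply hi a ha
      rw [← hsum, ← Finset.sum_subset (Finset.subset_univ s)]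
      · exact Finset.sum_congr rfl fun h hh => ha1 h hh
      · intro h _ hh
        rw [ha2 h hh, map_zero]
    rw [← ha1 i his, ha0, map_zero]
  · rw [eq_top_iff]
    intro u hu
    obtain ⟨w, hw, rfl⟩ := (hs u).mp hu
    refine Submodule.sum_mem _ fun h _ => ?_
    exact Submodule.mem_iSup_of_mem h ⟨w h, hw h, rfl⟩

end Cfsg.Agent.Lib.Helper38.FF
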