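import Cfsg.Agent.Lib.Helper38.FF.Defs
import Cfsg.Agent.Lib.Helper63.PGroupFixed

set_option autoImplicit false

namespace Cfsg.Agent.Lib.Helper38.FF

open scoped BigOperators

theorem exists_sylow_nontrivial {k : Type*} [Field k] {A : Type*} [Group A] [Finite A]
    (F : Subgroup A)
    {V : Type*} [AddCommGroup V] [Module k V] [Nontrivial V]
    (ρ : Representation k A V) (hfix : ∀ v, (∀ f ∈ F, ρ f v = v) → v = 0) :
    ∃ (r : ℕ) (_ : Fact r.Prime) (P : Sylow r F), (r : k) ≠ 0 ∧
      ∃ x ∈ (P : Subgroup F), ∃ v, ρ (x : A) v ≠ v := by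
  classical
  by_contra hcon
  push Not at hcon
  have h2 : ∃ v₀ : V, v₀ ≠ 0 ∧ ∀ (r : ℕ) (_ : Fact r.Prime), (r : k) = 0 →
      ∃ P : Sylow r F, ∀ x ∈ (P : Subgroup F), ρ (x : A) v₀ = v₀ := by
    by_cases hchar : ∃ p : ℕ, p.Prime ∧ (p : k) = 0
    · obtain ⟨p, hp, hpk⟩ := hchar
      have hpf : Fact p.Prime := ⟨hp⟩
      have hcp : CharP k p := (CharP.charP_iff_prime_eq_zero hp).mpr hpk
      let P : Sylow p F := default
      obtain ⟨v, -, hv0, hv⟩ := Cfsg.Agent.Lib.Helper63.exists_fixed_vector P.isPGroup'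
        ((ρ.comp F.subtype).comp (P : Subgroup F).subtype) ⊤ (fun _ _ _ => trivial) top_ne_bot
      refine ⟨v, hv0, ?_⟩
      intro r hr hrk
      have h3 : p ∣ r := (CharP.cast_eq_zero_iff k p r).mp hrk
      have h4 : p = r := (Nat.prime_dvd_prime_iff_eq hp hr.out).mp h3
      subst h4
      exact ⟨P, fun x hx => hv ⟨x, hx⟩⟩
    · obtain ⟨v, hv⟩ := exists_ne (0 : V)
      exact ⟨v, hv, fun r hr hrk => absurd ⟨r, hr.out, hrk⟩ hchar⟩
  obtain ⟨v₀, hv₀, hv₀'⟩ := h2
  let S : Subgroup F :=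
    { carrier := {x | ρ (x : A) v₀ = v₀}
      one_mem' := by simp
      mul_mem' := by
        intro x y hx hy
        have hx' : ρ (x : A) v₀ = v₀ := hx
        have hy' : ρ (y : A) v₀ = v₀ := hy
        change ρ ((x * y : F) : A) v₀ = v₀
        rw [Subgroup.coe_mul, map_mul, Module.End.mul_apply, hy', hx']
      inv_mem' := by
        intro x hx
        have hx' : ρ (x : A) v₀ = v₀ := hx
        change ρ ((x⁻¹ : F) : A) v₀ = v₀
        conv_lhs => rw [← hx']
        rw [← Module.End.mul_apply, ← map_mul]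
        simp }
  have hS : S = ⊤ := by
    rw [← Subgroup.index_eq_one]
    by_contra hne
    obtain ⟨r, hr, hrd⟩ := Nat.exists_prime_and_dvd hne
    have hrf : Fact r.Prime := ⟨hr⟩
    have h5 : ∃ P : Sylow r F, (P : Subgroup F) ≤ S := by
      by_cases hrk : (r : k) = 0
      · obtain ⟨P, hP⟩ := hv₀' r hrf hrk
        exact ⟨P, hP⟩
      · exact ⟨default, fun x hx => hcon r hrf default hrk x hx v₀⟩
    obtain ⟨P, hPS⟩ := h5
    exact P.not_dvd_index (hrd.trans (Subgroup.index_dvd_of_le hPS))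
  apply hv₀
  apply hfix
  intro f hf
  have : (⟨f, hf⟩ : F) ∈ S := hS ▸ Subgroup.mem_top _
  exact this

theorem exists_good_subgroup {k : Type*} [Field k] {A : Type*} [Group A] [Finite A]
    (F : Subgroup A) [F.Normal] (hnil : Group.IsNilpotent F)
    {V : Type*} [AddCommGroup V] [Module k V] [FiniteDimensional k V] [Nontrivial V]
    (ρ : Representation k A V) (hfix : ∀ v, (∀ f ∈ F, ρ f v = v) → v = 0) :
    ∃ B : Subgroup A, B.Normal ∧ B ≤ F ∧ (Nat.card B : k) ≠ 0 ∧
      (∀ x ∈ B, ∀ y ∈ B, ∀ v, ρ x (ρ y v) = ρ y (ρ x v)) ∧ ∃ b ∈ B, ∃ v, ρ b v ≠ v := by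
  classical
  obtain ⟨r, hr, P, hrk, x₀, hx₀, v₀, hv₀⟩ := exists_sylow_nontrivial F ρ hfix
  have hPn : (P : Subgroup F).Normal :=
    ((Group.isNilpotent_of_finite_tfae (G := F)).out 0 3 rfl rfl).mp hnil r hr P
  have hPc : (P : Subgroup F).Characteristic := Sylow.characteristic_of_normal P hPn
  let R : Subgroup A := (P : Subgroup F).map F.subtype
  have hRn : R.Normal := ConjAct.normal_of_characteristic_of_normal
  have hRF : R ≤ F := by
    rintro _ ⟨x, _, rfl⟩
    exact x.2
  have hRp : IsPGroup r R := P.isPGroup'.map F.subtype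
  let g : A →* (Module.End k V)ˣ := ρ.asGroupHom
  have hg : ∀ a v, ((g a : (Module.End k V)ˣ) : Module.End k V) v = ρ a v := fun a v => rfl
  let g' : A →* g.range := g.rangeRestrict
  have hg's : Function.Surjective g' := g.rangeRestrict_surjective
  have hg' : ∀ a, ((g' a : g.range) : (Module.End k V)ˣ) = g a := fun a => rfl
  let Q : Subgroup g.range := R.map g'
  have hQn : Q.Normal := hRn.map g' hg's
  have hQp : IsPGroup r Q := hRp.map g'
  let C : Subgroup g.range := Subgroup.centralizer (Q : Set g.range)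
  have hCn : C.Normal := Subgroup.normal_centralizer
  let B : Subgroup A := R ⊓ C.comap g'
  have hBn : B.Normal := by
    have : (C.comap g').Normal := hCn.comap g'
    exact Subgroup.normal_inf_normal R (C.comap g')
  have hBR : B ≤ R := inf_le_left
  have hBp : IsPGroup r B := hRp.to_le hBR
  refine ⟨B, hBn, hBR.trans hRF, ?_, ?_, ?_⟩
  · obtain ⟨n, hn⟩ := IsPGroup.iff_card.mp hBp
    rw [hn, Nat.cast_pow]
    exact pow_ne_zero n hrk
  · intro x hx y hy v
    have hxC : g' x ∈ C := hx.2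
    have hyQ : g' y ∈ Q := ⟨y, hBR hy, rfl⟩
    have h1 : g' y * g' x = g' x * g' y := (Subgroup.mem_centralizer_iff.mp hxC) _ hyQ
    have h2 : g y * g x = g x * g y := congrArg Subtype.val h1
    have h3 := congrArg (fun u : (Module.End k V)ˣ => (u : Module.End k V) v) h2
    exact h3.symm
  · have hfinG : Finite g.range := Finite.of_surjective g' hg's
    have hfinQ : Finite Q := Finite.of_injective (fun q : Q => (q : g.range)) Subtype.val_injective
    have hQnt : Nontrivial Q := by
      refine ⟨⟨⟨g' x₀, ⟨x₀, ⟨x₀, hx₀, rfl⟩, rfl⟩⟩, 1, ?_⟩⟩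
      intro h0
      apply hv₀
      have h1 : g' (x₀ : A) = 1 := congrArg Subtype.val h0
      have h2 : g (x₀ : A) = 1 := congrArg Subtype.val h1
      have h3 := congrArg (fun u : (Module.End k V)ˣ => (u : Module.End k V) v₀) h2
      exact h3
    have hcen := hQp.center_nontrivial
    obtain ⟨z, hz⟩ := exists_ne (1 : Subgroup.center Q)
    obtain ⟨b, hbR, hbz⟩ := (z : Q).2
    refine ⟨b, ⟨hbR, ?_⟩, ?_⟩
    · change g' b ∈ C
      rw [Subgroup.mem_centralizer_iff]
      intro q hq
      have h1 := (Subgroup.mem_center_iff.mp z.2) ⟨q, hq⟩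
      have h2 := congrArg Subtype.val h1
      rw [hbz]
      exact h2
    · by_contra hall
      push Not at hall
      apply hz
      apply Subtype.ext
      apply Subtype.ext
      change ((z : Q) : g.range) = 1
      rw [← hbz]
      apply Subtype.ext
      apply Units.ext
      apply LinearMap.ext
      intro v
      exact hall v

end Cfsg.Agent.Lib.Helper38.FF
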