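import Cfsg.Agent.Lib.Helper38.FF.Defs
import Cfsg.Agent.Lib.Helper38.FF.PICK
import Cfsg.Agent.Lib.Helper38.FF.COMM
import Cfsg.Agent.Lib.Helper38.FF.EXT

set_option autoImplicit false

namespace Cfsg.Agent.Lib.Helper38.FF

open scoped BigOperators

/-- restriction of a representation to an invariant subspace -/
def restrNil {k : Type*} [Field k] {A : Type*} [Group A] {V : Type*} [AddCommGroup V] [Module k V]
    (ρ : Representation k A V) (U : Submodule k V) (hU : ∀ a : A, ∀ u ∈ U, ρ a u ∈ U) :
    Representation k A U where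
  toFun a := (ρ a).restrict (hU a)
  map_one' := by ext; simp
  map_mul' := by intros; ext; simp

theorem restrNil_apply {k : Type*} [Field k] {A : Type*} [Group A] {V : Type*} [AddCommGroup V] [Module k V]
    (ρ : Representation k A V) (U : Submodule k V) (hU : ∀ a : A, ∀ u ∈ U, ρ a u ∈ U) (a : A) (u : U) :
    ((restrNil ρ U hU a u : U) : V) = ρ a u := rfl

theorem freeIn_top_of_subsingleton_nil {k : Type*} [Field k] {V : Type*} [AddCommGroup V] [Module k V]
    {H : Type*} [Group H] [Fintype H] (σ : Representation k H V) [Subsingleton V] : FreeIn σ ⊤ := by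
  refine ⟨⊥, ?_, ?_⟩
  · intro w _ _ h
    exact Subsingleton.elim _ _
  · intro u
    constructor
    · intro _
      exact ⟨fun _ => 0, fun _ => Submodule.zero_mem _, Subsingleton.elim _ _⟩
    · intro _
      trivial

theorem free_of_nilpotent {k : Type*} [Field k] {A : Type*} [Group A] [Finite A]
    (F Hc : Subgroup A) [F.Normal] [Fintype Hc] (hnil : Group.IsNilpotent F)
    (hfpf : ∀ h ∈ Hc, ∀ f ∈ F, h * f * h⁻¹ = f → h = 1 ∨ f = 1)
    {V : Type*} [AddCommGroup V] [Module k V] [FiniteDimensional k V]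
    (ρ : Representation k A V) (hfix : ∀ v, (∀ f ∈ F, ρ f v = v) → v = 0) :
    FreeIn (ρ.comp Hc.subtype) ⊤ := by
  classical
  induction hn : Module.finrank k V using Nat.strong_induction_on generalizing V with
  | _ n ih =>
  rcases subsingleton_or_nontrivial V with hs | hnt
  · exact freeIn_top_of_subsingleton_nil _
  obtain ⟨B, hBn, hBF, hcard, hcomm, b₀, hb₀, v₀, hv₀⟩ := exists_good_subgroup F hnil ρ hfix
  let _ : Fintype B := Fintype.ofFinite _
  -- the fixed space
  let V₂ : Submodule k V :=
    { carrier := {v | ∀ b ∈ B, ρ b v = v}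
      add_mem' := by
        intro x y hx hy b hb
        rw [map_add, hx b hb, hy b hb]
      zero_mem' := by
        intro b _
        exact map_zero _
      smul_mem' := by
        intro c x hx b hb
        rw [map_smul, hx b hb] }
  have hV₂ : ∀ v, v ∈ V₂ ↔ ∀ b ∈ B, ρ b v = v := fun v => Iff.rfl
  let e : V →ₗ[k] V := (Nat.card B : k)⁻¹ • ∑ b : B, ρ (b : A)
  have he : ∀ v, e v = (Nat.card B : k)⁻¹ • ∑ b : B, ρ (b : A) v := by
    intro v
    simp [e, LinearMap.sum_apply]
  have he_mem : ∀ v, e v ∈ V₂ := by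
    intro v b hb
    rw [he, map_smul, map_sum]
    congr 1
    refine Fintype.sum_equiv (Equiv.mulLeft (⟨b, hb⟩ : B)) _ _ ?_
    intro x
    simp [map_mul]
  have he_fix : ∀ v ∈ V₂, e v = v := by
    intro v hv
    rw [he]
    have : ∑ b : B, ρ (b : A) v = (Nat.card B : k) • v := by
      rw [Finset.sum_congr rfl (fun b _ => hv b.1 b.2)]
      simp [Nat.card_eq_fintype_card, Nat.cast_smul_eq_nsmul]
    rw [this, smul_smul, inv_mul_cancel₀ hcard, one_smul]
  have he_comm : ∀ a v, ρ a (e v) = e (ρ a v) := by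
    intro a v
    rw [he, he, map_smul, map_sum]
    congr 1
    refine Fintype.sum_equiv (MulAut.conjNormal a : B ≃* B).toEquiv _ _ ?_
    intro x
    have : ((MulAut.conjNormal a : B ≃* B) x : A) = a * x * a⁻¹ := by simp
    change ρ a (ρ x v) = ρ ((MulAut.conjNormal a : B ≃* B) x : A) (ρ a v)
    rw [this, ← Module.End.mul_apply, ← Module.End.mul_apply, ← map_mul, ← map_mul]
    congr 2
    group
  have hV₂inv : ∀ a : A, ∀ u ∈ V₂, ρ a u ∈ V₂ := by
    intro a u hu
    rw [← he_fix u hu, he_comm]
    exact he_mem _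
  let π : V →ₗ[k] V₂ := e.codRestrict V₂ he_mem
  have hπ : Function.Surjective π := by
    intro u
    refine ⟨u, ?_⟩
    apply Subtype.ext
    exact he_fix u u.2
  have hker : ∀ v, v ∈ LinearMap.ker π ↔ e v = 0 := by
    intro v
    rw [LinearMap.mem_ker]
    constructor
    · intro h
      exact congrArg Subtype.val h
    · intro h
      apply Subtype.ext
      exact h
  -- free on V₂
  have hlt : Module.finrank k V₂ < n := by
    rw [← hn]
    apply Submodule.finrank_lt
    intro htop
    apply hv₀
    have : v₀ ∈ V₂ := by rw [htop]; trivial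
    exact this b₀ hb₀
  have h₂ : FreeIn ((restrNil ρ V₂ hV₂inv).comp Hc.subtype) ⊤ := by
    refine ih _ hlt (restrNil ρ V₂ hV₂inv) ?_ rfl
    intro v hv
    apply Subtype.ext
    apply hfix
    intro f hf
    exact congrArg Subtype.val (hv f hf)
  have h₁ : FreeIn (ρ.comp Hc.subtype) (LinearMap.ker π) := by
    refine freeIn_of_comm B Hc ?_ ?_ hcard ρ _ ?_ ?_ ?_
    · intro h _ b hb
      exact hBn.conj_mem b hb h
    · intro h hh b hb
      exact hfpf h hh b (hBF hb)
    · intro a u hu
      rw [hker] at hu ⊢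
      rw [← he_comm, hu, map_zero]
    · intro x hx y hy u _
      exact hcomm x hx y hy u
    · intro u hu hfx
      rw [hker] at hu
      rw [← he_fix u hfx, hu]
  refine freeIn_top_of_ker (ρ.comp Hc.subtype) ((restrNil ρ V₂ hV₂inv).comp Hc.subtype) π hπ ?_ h₁ h₂
  intro h v
  apply Subtype.ext
  exact (he_comm h v).symm

end Cfsg.Agent.Lib.Helper38.FF
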